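import Mathlib

set_option autoImplicit false

namespace Cfsg.Agent.Lib.Helper27

/-- The fixed points of a group of automorphisms. -/
def fixedSub {M : Type*} [Group M] (A : Subgroup (MulAut M)) : Subgroup M where
  carrier := {x | ∀ α ∈ A, α x = x}
  one_mem' := fun α _ => map_one α
  mul_mem' := fun {a b} ha hb α hα => by rw [map_mul, ha α hα, hb α hα]
  inv_mem' := fun {a} ha α hα => by rw [map_inv, ha α hα]

/-- The commutator of a group with a group of automorphisms. -/
def commSub {M : Type*} [Group M] (A : Subgroup (MulAut M)) : Subgroup M :=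
  Subgroup.closure {y | ∃ (x : M) (α : MulAut M), α ∈ A ∧ y = x⁻¹ * α x}

theorem mem_fixedSub {M : Type*} [Group M] (A : Subgroup (MulAut M)) (x : M) :
    x ∈ fixedSub A ↔ ∀ α ∈ A, α x = x := Iff.rfl

/-- Fitting decomposition for a coprime group of automorphisms of a finite abelian group. -/
theorem coprime_fitting {M : Type*} [Group M] [Finite M] (hcomm : ∀ a b : M, a * b = b * a)
    (A : Subgroup (MulAut M)) (hcop : (Nat.card A).Coprime (Nat.card M)) :
    fixedSub A ⊓ commSub A = ⊥ ∧ fixedSub A ⊔ commSub A = ⊤ := by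
  let _ : CommGroup M := { ‹Group M› with mul_comm := hcomm }
  have : Fintype A := Fintype.ofFinite A
  let N : M →* M := ∏ α : A, ((α : MulAut M) : M ≃* M).toMonoidHom
  have hN : ∀ x : M, N x = ∏ α : A, (α : MulAut M) x := by
    intro x
    show (∏ α : A, ((α : MulAut M) : M ≃* M).toMonoidHom) x = _
    rw [MonoidHom.finsetProd_apply]
    rfl
  have hNβ : ∀ (β : MulAut M), β ∈ A → ∀ x : M, N (β x) = N x := by
    intro β hβ x
    rw [hN, hN]
    exact Fintype.prod_equiv (Equiv.mulRight (⟨β, hβ⟩ : A)) _ _ (fun α => rfl)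
  have hβN : ∀ (β : MulAut M), β ∈ A → ∀ x : M, β (N x) = N x := by
    intro β hβ x
    rw [hN, map_prod]
    exact Fintype.prod_equiv (Equiv.mulLeft (⟨β, hβ⟩ : A)) _ _ (fun α => rfl)
  have hNfix : ∀ x ∈ fixedSub A, N x = x ^ Nat.card A := by
    intro x hx
    rw [hN, Nat.card_eq_fintype_card, ← Finset.card_univ, ← Finset.prod_const]
    exact Finset.prod_congr rfl (fun α _ => hx α α.2)
  have hNcomm : ∀ d ∈ commSub A, N d = 1 := by
    intro d hd
    have hle : commSub A ≤ N.ker := by
      unfold commSub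
      rw [Subgroup.closure_le]
      rintro _ ⟨x, α, hα, rfl⟩
      show N (x⁻¹ * α x) = 1
      rw [map_mul, map_inv, hNβ α hα, inv_mul_cancel]
    exact hle hd
  have hpow : ∀ x : M, x ^ Nat.card A * (N x)⁻¹ ∈ commSub A := by
    intro x
    have h1 : x ^ Nat.card A * (N x)⁻¹ = ∏ α : A, (x⁻¹ * (α : MulAut M) x)⁻¹ := by
      rw [hN, Nat.card_eq_fintype_card, ← Finset.card_univ, ← Finset.prod_const,
        ← Finset.prod_inv_distrib, ← Finset.prod_mul_distrib]
      apply Finset.prod_congr rfl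
      intro α _
      rw [mul_inv_rev, inv_inv, mul_comm]
    rw [h1]
    apply Subgroup.prod_mem
    intro α _
    apply Subgroup.inv_mem
    exact Subgroup.subset_closure ⟨x, α, α.2, rfl⟩
  constructor
  · rw [eq_bot_iff]
    rintro x ⟨hx1, hx2⟩
    have h1 : x ^ Nat.card A = 1 := by rw [← hNfix x hx1, hNcomm x hx2]
    have h2 : x ^ Nat.card M = 1 := pow_card_eq_one'
    have h3 : orderOf x = 1 :=
      Nat.eq_one_of_dvd_coprimes hcop (orderOf_dvd_of_pow_eq_one h1) (orderOf_dvd_of_pow_eq_one h2)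
    exact orderOf_eq_one_iff.mp h3
  · rw [eq_top_iff]
    intro x _
    have h1 : x ^ Nat.card A ∈ fixedSub A ⊔ commSub A := by
      have h2 : x ^ Nat.card A = N x * (x ^ Nat.card A * (N x)⁻¹) := by
        rw [mul_comm (x ^ Nat.card A), ← mul_assoc, mul_inv_cancel, one_mul]
      rw [h2]
      exact Subgroup.mul_mem_sup (fun β hβ => hβN β hβ x) (hpow x)
    have h3 : x ^ Nat.card M = 1 := pow_card_eq_one'
    have hb := Nat.gcd_eq_gcd_ab (Nat.card A) (Nat.card M)
    rw [Nat.Coprime] at hcop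
    rw [hcop] at hb
    have hb' : (1 : ℤ) = (Nat.card A : ℤ) * Nat.gcdA (Nat.card A) (Nat.card M)
        + (Nat.card M : ℤ) * Nat.gcdB (Nat.card A) (Nat.card M) := by exact_mod_cast hb
    have h4 : x ^ (1 : ℤ) = (x ^ Nat.card A) ^ (Nat.gcdA (Nat.card A) (Nat.card M)) := by
      rw [hb', zpow_add, zpow_mul, zpow_mul, zpow_natCast, zpow_natCast, h3, one_zpow, mul_one]
    rw [zpow_one] at h4
    rw [h4]
    exact Subgroup.zpow_mem _ h1 _

end Cfsg.Agent.Lib.Helper27
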