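import Mathlib

set_option autoImplicit false

namespace Cfsg.Agent.Lib.Helper27

/-- One coordinate: elements of order at most two that are `2^j`-th multiples in `ZMod (2^a)`. -/
theorem zmod_two_pow_coord (a : ℕ) (ha : 1 ≤ a) (j : ℕ) (t : ZMod (2 ^ a)) :
    (2 • t = 0 ∧ ∃ v : ZMod (2 ^ a), t = 2 ^ j • v) ↔
      (t = 0 ∨ (t = ((2 ^ (a - 1) : ℕ) : ZMod (2 ^ a)) ∧ j < a)) := by
  have hne : NeZero (2 ^ a) := ⟨by positivity⟩
  have h2a : 2 ^ a = 2 * 2 ^ (a - 1) := by
    rw [← pow_succ']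
    congr 1
    omega
  constructor
  · rintro ⟨h2, v, hv⟩
    by_cases ht : t = 0
    · exact Or.inl ht
    · right
      have hj : j < a := by
        by_contra hja
        apply ht
        rw [hv]
        have h1 : 2 ^ j = 2 ^ (j - a) * 2 ^ a := by
          rw [← pow_add]
          congr 1
          omega
        rw [h1, mul_smul]
        have h3 : (2 ^ a) • v = 0 := by
          rw [nsmul_eq_mul]
          have : ((2 ^ a : ℕ) : ZMod (2 ^ a)) = 0 := ZMod.natCast_self _
          rw [this, zero_mul]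
        rw [h3, smul_zero]
      refine ⟨?_, hj⟩
      have hval : t = ((t.val : ℕ) : ZMod (2 ^ a)) := (ZMod.natCast_zmod_val t).symm
      have h4 : ((2 * t.val : ℕ) : ZMod (2 ^ a)) = 0 := by
        rw [Nat.cast_mul, ← hval]
        rw [nsmul_eq_mul] at h2
        exact_mod_cast h2
      rw [ZMod.natCast_eq_zero_iff] at h4
      have hlt : t.val < 2 ^ a := ZMod.val_lt t
      have hnat : ∀ w : ℕ, 2 ^ a ∣ 2 * w → w < 2 ^ a → w = 0 ∨ w = 2 ^ (a - 1) := by
        intro w hw1 hw2
        rw [h2a] at hw1 hw2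
        have h5 : 2 ^ (a - 1) ∣ w := Nat.dvd_of_mul_dvd_mul_left (by norm_num) hw1
        obtain ⟨q, hq⟩ := h5
        have hq2 : q < 2 := by
          by_contra hq2
          have : 2 ^ (a - 1) * 2 ≤ 2 ^ (a - 1) * q := Nat.mul_le_mul_left _ (not_lt.mp hq2)
          omega
        interval_cases q
        · left
          rw [hq, mul_zero]
        · right
          rw [hq, mul_one]
      rcases hnat t.val h4 hlt with h0 | h1
      · exfalso
        apply ht
        rw [hval, h0]
        simp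
      · rw [hval, h1]
  · rintro (rfl | ⟨rfl, hj⟩)
    · exact ⟨by simp, 0, by simp⟩
    · constructor
      · rw [nsmul_eq_mul]
        have : ((2 : ℕ) : ZMod (2 ^ a)) * ((2 ^ (a - 1) : ℕ) : ZMod (2 ^ a)) = ((2 ^ a : ℕ) : ZMod (2 ^ a)) := by
          rw [← Nat.cast_mul, ← h2a]
        rw [this]
        exact ZMod.natCast_self _
      · refine ⟨((2 ^ (a - 1 - j) : ℕ) : ZMod (2 ^ a)), ?_⟩
        rw [nsmul_eq_mul, ← Nat.cast_mul, ← pow_add]
        congr 2
        omega


theorem odd_trick {M : Type*} [Group M] (α : MulAut M) (k : ℕ) (hk : Odd k) (hα : α ^ k = 1) (x d : M)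
    (hd : α d = d) (hd2 : d ^ 2 = 1) (hx : α x = x * d) : d = 1 := by
  have h : ∀ m : ℕ, (α ^ m) x = x * d ^ m := by
    intro m
    induction m with
    | zero => simp
    | succ m ih =>
      rw [pow_succ', MulAut.mul_apply, ih, map_mul, map_pow, hd, hx, pow_succ', mul_assoc]
  have h1 := h k
  rw [hα, MulAut.one_apply] at h1
  have h2 : d ^ k = 1 := by
    have h3 : x * 1 = x * d ^ k := by rw [mul_one]; exact h1
    exact (mul_left_cancel h3).symm
  obtain ⟨q, rfl⟩ := hk
  rw [pow_succ, pow_mul, hd2, one_pow, one_mul] at h2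
  exact h2

section

variable {M : Type*} [Group M] {n : ℕ} (a : Fin n → ℕ)

/-- Coordinates of an element through the isomorphism. -/
def co (e : M ≃* Multiplicative ((i : Fin n) → ZMod (2 ^ a i))) (x : M) (i : Fin n) : ZMod (2 ^ a i) := (Multiplicative.toAdd (e x)) i

theorem co_mul (e : M ≃* Multiplicative ((i : Fin n) → ZMod (2 ^ a i))) (x y : M) (i : Fin n) : co a e (x * y) i = co a e x i + co a e y i := by
  simp [co]

theorem co_one (e : M ≃* Multiplicative ((i : Fin n) → ZMod (2 ^ a i))) (i : Fin n) : co a e 1 i = 0 := by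
  simp [co]

theorem co_inv (e : M ≃* Multiplicative ((i : Fin n) → ZMod (2 ^ a i))) (x : M) (i : Fin n) : co a e x⁻¹ i = - co a e x i := by
  simp [co]

theorem co_pow (e : M ≃* Multiplicative ((i : Fin n) → ZMod (2 ^ a i))) (x : M) (m : ℕ) (i : Fin n) : co a e (x ^ m) i = m • co a e x i := by
  simp [co]

theorem co_ext (e : M ≃* Multiplicative ((i : Fin n) → ZMod (2 ^ a i))) {x y : M} (h : ∀ i, co a e x i = co a e y i) : x = y := by
  apply e.injective
  apply Multiplicative.toAdd.injective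
  funext i
  exact h i

theorem co_surj (e : M ≃* Multiplicative ((i : Fin n) → ZMod (2 ^ a i))) (w : (i : Fin n) → ZMod (2 ^ a i)) : ∃ v : M, ∀ i, co a e v i = w i :=
  ⟨e.symm (Multiplicative.ofAdd w), fun i => by simp [co]⟩

/-- Elements of order at most two that are `2^j`-th powers. -/
def Wset (M : Type*) [Group M] (j : ℕ) : Set M := {x | x ^ 2 = 1 ∧ ∃ v : M, x = v ^ (2 ^ j)}

theorem mem_Wset_iff (e : M ≃* Multiplicative ((i : Fin n) → ZMod (2 ^ a i))) (ha1 : ∀ i, 1 ≤ a i) (j : ℕ) (x : M) :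
    x ∈ Wset M j ↔ ∀ i, (co a e x i = 0 ∨
      (co a e x i = ((2 ^ (a i - 1) : ℕ) : ZMod (2 ^ a i)) ∧ j < a i)) := by
  constructor
  · rintro ⟨h2, v, hv⟩ i
    apply (zmod_two_pow_coord (a i) (ha1 i) j _).mp
    refine ⟨?_, co a e v i, ?_⟩
    · rw [← co_pow, h2, co_one]
    · rw [hv, co_pow]
  · intro h
    have h' := fun i => (zmod_two_pow_coord (a i) (ha1 i) j _).mpr (h i)
    choose w hw using fun i => (h' i).2
    obtain ⟨v, hv⟩ := co_surj a e w
    refine ⟨co_ext a e fun i => ?_, v, co_ext a e fun i => ?_⟩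
    · rw [co_pow, (h' i).1, co_one]
    · rw [co_pow, hv, ← hw]

theorem Wset_index (e : M ≃* Multiplicative ((i : Fin n) → ZMod (2 ^ a i))) (ha : StrictMono a) (ha1 : ∀ i, 1 ≤ a i) (j : ℕ) (x y : M)
    (hx : x ∈ Wset M j) (hy : y ∈ Wset M j) (hx1 : x ∉ Wset M (j + 1)) (hy1 : y ∉ Wset M (j + 1)) :
    x⁻¹ * y ∈ Wset M (j + 1) := by
  rw [mem_Wset_iff a e ha1] at hx hy hx1 hy1 ⊢
  push Not at hx1 hy1
  obtain ⟨i₀, hi₀, hi₀'⟩ := hx1
  obtain ⟨i₁, hi₁, hi₁'⟩ := hy1
  have hxi₀ : co a e x i₀ = ((2 ^ (a i₀ - 1) : ℕ) : ZMod (2 ^ a i₀)) ∧ j < a i₀ := by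
    rcases hx i₀ with h | h
    · exact absurd h hi₀
    · exact h
  have hyi₁ : co a e y i₁ = ((2 ^ (a i₁ - 1) : ℕ) : ZMod (2 ^ a i₁)) ∧ j < a i₁ := by
    rcases hy i₁ with h | h
    · exact absurd h hi₁
    · exact h
  have ha₀ : a i₀ = j + 1 := by
    have := hi₀' hxi₀.1
    omega
  have ha₁ : a i₁ = j + 1 := by
    have := hi₁' hyi₁.1
    omega
  have hii : i₁ = i₀ := ha.injective (ha₁.trans ha₀.symm)
  subst hii
  intro i
  rw [co_mul, co_inv]
  by_cases hi : i = i₁
  · subst hi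
    left
    rw [hxi₀.1, hyi₁.1, neg_add_cancel]
  · have hai : a i ≠ j + 1 := fun h => hi (ha.injective (h.trans ha₀.symm))
    have hneg : ∀ hj : j < a i, -((2 ^ (a i - 1) : ℕ) : ZMod (2 ^ a i)) = ((2 ^ (a i - 1) : ℕ) : ZMod (2 ^ a i)) := by
      intro hj
      have h2 := ((zmod_two_pow_coord (a i) (ha1 i) j _).mpr (Or.inr ⟨rfl, hj⟩)).1
      rw [two_nsmul] at h2
      exact neg_eq_of_add_eq_zero_left h2
    rcases hx i with h | h <;> rcases hy i with h' | h'
    · left
      rw [h, h', neg_zero, add_zero]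
    · right
      rw [h, h'.1, neg_zero, zero_add]
      exact ⟨rfl, by omega⟩
    · right
      rw [h.1, h', add_zero, hneg h.2]
      exact ⟨rfl, by omega⟩
    · left
      rw [h.1, h'.1, neg_add_cancel]

theorem Wset_trivial (e : M ≃* Multiplicative ((i : Fin n) → ZMod (2 ^ a i))) (ha1 : ∀ i, 1 ≤ a i) (j : ℕ) (hj : ∀ i, a i ≤ j) (x : M) (hx : x ∈ Wset M j) :
    x = 1 := by
  rw [mem_Wset_iff a e ha1] at hx
  apply co_ext a e
  intro i
  rw [co_one]
  rcases hx i with h | h
  · exact h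
  · have := hj i
    omega

/-- Every element is killed by `2 ^ (∑ a i)`. -/
theorem pow_two_pow_sum (e : M ≃* Multiplicative ((i : Fin n) → ZMod (2 ^ a i))) (x : M) :
    x ^ (2 ^ (∑ i, a i)) = 1 := by
  have hsum : ∀ i, a i ≤ ∑ i, a i := fun i =>
    Finset.single_le_sum (fun _ _ => Nat.zero_le _) (Finset.mem_univ i)
  apply co_ext a e
  intro i
  rw [co_pow, co_one]
  have h1 : 2 ^ (∑ i, a i) = 2 ^ (∑ i, a i - a i) * 2 ^ a i := by
    rw [← pow_add]
    congr 1
    have := hsum i
    omega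
  rw [h1, mul_smul]
  have h3 : (2 ^ a i) • co a e x i = 0 := by
    rw [nsmul_eq_mul]
    have : ((2 ^ a i : ℕ) : ZMod (2 ^ a i)) = 0 := ZMod.natCast_self _
    rw [this, zero_mul]
  rw [h3, smul_zero]

/-- An automorphism of odd order of an abelian `2`-group whose cyclic factors have pairwise
distinct orders is trivial. -/
theorem odd_aut_trivial (e : M ≃* Multiplicative ((i : Fin n) → ZMod (2 ^ a i))) (ha : StrictMono a) (ha1 : ∀ i, 1 ≤ a i) (α : MulAut M) (k : ℕ) (hk : Odd k)
    (hα : α ^ k = 1) : α = 1 := by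
  have hpres : ∀ j x, x ∈ Wset M j → α x ∈ Wset M j := by
    rintro j x ⟨h2, v, hv⟩
    exact ⟨by rw [← map_pow, h2, map_one], α v, by rw [hv, map_pow]⟩
  have one_mem : ∀ j, (1 : M) ∈ Wset M j := fun j => ⟨one_pow 2, 1, (one_pow _).symm⟩
  have hsum : ∀ i, a i ≤ ∑ i, a i := fun i =>
    Finset.single_le_sum (fun _ _ => Nat.zero_le _) (Finset.mem_univ i)
  have step1 : ∀ d j, (∑ i, a i) ≤ j + d → ∀ x ∈ Wset M j, α x = x := by
    intro d
    induction d with
    | zero =>
      intro j hj x hx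
      have h1 : x = 1 := Wset_trivial a e ha1 j (fun i => (hsum i).trans hj) x hx
      rw [h1, map_one]
    | succ d ih =>
      intro j hj x hx
      have ih' := ih (j + 1) (by omega)
      have hd : x⁻¹ * α x ∈ Wset M (j + 1) := by
        by_cases hx1 : x ∈ Wset M (j + 1)
        · rw [ih' x hx1, inv_mul_cancel]
          exact one_mem _
        · have hαx1 : α x ∉ Wset M (j + 1) := by
            intro h
            have h3 := ih' (α x) h
            have h4 : α x = x := α.injective h3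
            rw [h4] at h
            exact hx1 h
          exact Wset_index a e ha ha1 j x (α x) hx (hpres j x hx) hx1 hαx1
      have hd' := ih' _ hd
      have hd1 : x⁻¹ * α x = 1 := odd_trick α k hk hα x _ hd' hd.1 (by group)
      calc α x = x * (x⁻¹ * α x) := by group
        _ = x := by rw [hd1, mul_one]
  have step2 : ∀ m : ℕ, ∀ x : M, x ^ (2 ^ m) = 1 → α x = x := by
    intro m
    induction m with
    | zero =>
      intro x hx
      rw [pow_zero, pow_one] at hx
      rw [hx, map_one]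
    | succ m ih =>
      intro x hx
      have hy : (x ^ 2) ^ (2 ^ m) = 1 := by
        rw [← pow_mul, ← pow_succ']
        exact hx
      have h1 := ih _ hy
      have hd2 : (x⁻¹ * α x) ^ 2 = 1 := by
        apply co_ext a e
        intro i
        have h2 : co a e (α (x ^ 2)) i = co a e (x ^ 2) i := by rw [h1]
        rw [map_pow, co_pow, co_pow] at h2
        rw [co_pow, co_mul, co_inv, co_one, smul_add, smul_neg, h2, neg_add_cancel]
      have hdW : x⁻¹ * α x ∈ Wset M 0 := ⟨hd2, x⁻¹ * α x, by rw [pow_zero, pow_one]⟩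
      have hd' := step1 (∑ i, a i) 0 (by omega) _ hdW
      have hd1 : x⁻¹ * α x = 1 := odd_trick α k hk hα x _ hd' hd2 (by group)
      calc α x = x * (x⁻¹ * α x) := by group
        _ = x := by rw [hd1, mul_one]
  ext x
  rw [MulAut.one_apply]
  exact step2 (∑ i, a i) x (pow_two_pow_sum a e x)

end

end Cfsg.Agent.Lib.Helper27
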