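import Mathlib
import Cfsg.Prelude.Def_Transfer
import Cfsg.Agent.Lib.Helper27.PHallA
import Cfsg.Agent.Lib.Helper10.PKer1
import Cfsg.Agent.Lib.Helper16.Basic

set_option autoImplicit false

/-! Groups of symplectic type: elements of order `p` in cosets of the centre of a characteristic
class two subgroup, and the extraspecial complement. -/

namespace Cfsg.Agent.Lib.Helper27.PHall

open scoped commutatorElement

theorem char_of_inv {P : Type*} [Group P] (A : Subgroup P) (h : ∀ α : MulAut P, ∀ x ∈ A, α x ∈ A) :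
    A.Characteristic := by
  rw [Subgroup.characteristic_iff_map_le]
  rintro ϕ _ ⟨x, hx, rfl⟩
  exact h ϕ x hx

theorem comm_of {P : Type*} [Group P] (A : Subgroup P) (h : ∀ a ∈ A, ∀ b ∈ A, a * b = b * a) :
    IsMulCommutative ↥A :=
  ⟨⟨fun a b => Subtype.ext (h a.1 a.2 b.1 b.2)⟩⟩

theorem gen_of_cyclic {P : Type*} [Group P] [Finite P] (Z : Subgroup P) (hZ : IsCyclic ↥Z) :
    ∃ g ∈ Z, ∀ u ∈ Z, ∃ k : ℕ, u = g ^ k := by
  obtain ⟨⟨g, hgZ⟩, hg⟩ := IsCyclic.exists_generator (α := ↥Z)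
  refine ⟨g, hgZ, fun u hu => ?_⟩
  have h1 := hg ⟨u, hu⟩
  rw [← mem_powers_iff_mem_zpowers] at h1
  obtain ⟨k, hk⟩ := (Submonoid.mem_powers_iff _ _).1 h1
  exact ⟨k, by
    have := congrArg Subtype.val hk
    simpa using this.symm⟩

theorem Cl2.mulpow {P : Type*} [Group P] {p : ℕ} [hp : Fact p.Prime] {C Z : Subgroup P} (h : Cl2 p C Z)
    (hQ : p ≠ 2 ∨ ∀ u ∈ Z, u ^ p = 1 → ∃ v ∈ Z, u = v ^ p)
    {c d : P} (hc : c ∈ C) (hd : d ∈ C) : ∃ v ∈ Z, (c * d) ^ p = c ^ p * d ^ p * v ^ p := by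
  have hzZ : ⁅d, c⁆ ∈ Z := h.comm d hd c hc
  have hz : d * c = ⁅d, c⁆ * c * d := by
    simp only [commutatorElement_def]; group
  have hzx : Commute ⁅d, c⁆ c := h.cen _ hzZ c hc
  have hzy : Commute ⁅d, c⁆ d := h.cen _ hzZ d hd
  have key := Cfsg.Agent.Lib.Helper12.SmallExp.mul_pow_class2 c d ⁅d, c⁆ hz hzx hzy p
  have hzp : ⁅d, c⁆ ^ p = 1 := h.comm_pow hd hc
  by_cases hp2 : p = 2
  · rcases hQ with hQ | hQ
    · exact absurd hp2 hQ
    · obtain ⟨v, hv, hv2⟩ := hQ _ hzZ hzp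
      refine ⟨v, hv, ?_⟩
      rw [key, ← hv2]
      subst hp2
      simp
  · refine ⟨1, Z.one_mem, ?_⟩
    have h2p : 2 < p := lt_of_le_of_ne hp.out.two_le (Ne.symm hp2)
    obtain ⟨m, hm⟩ := Nat.Prime.dvd_choose_self hp.out (by norm_num : (2 : ℕ) ≠ 0) h2p
    rw [key, hm, pow_mul, hzp]
    simp

/-- Key lemma: in a characteristic class two subgroup `C` over its centre `Z`, every coset of `Z`
contains an element of order dividing `p`. -/
theorem Cl2.exists_pow_one {P : Type*} [Group P] [Finite P] {p : ℕ} [hp : Fact p.Prime] (hP : IsPGroup p P)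
    (hsymp : ∀ A : Subgroup P, A.Characteristic → IsMulCommutative A → IsCyclic A)
    {C Z : Subgroup P} (h : Cl2 p C Z)
    (hCinv : ∀ α : MulAut P, ∀ x ∈ C, α x ∈ C) (hZinv : ∀ α : MulAut P, ∀ x ∈ Z, α x ∈ Z)
    (hna : ∃ c ∈ C, ∃ d ∈ C, c * d ≠ d * c)
    (hQ : p ≠ 2 ∨ ∀ u ∈ Z, u ^ p = 1 → ∃ v ∈ Z, u = v ^ p) :
    ∀ c ∈ C, ∃ u ∈ Z, (c * u) ^ p = 1 := by
  classical
  have hZab : ∀ u ∈ Z, ∀ v ∈ Z, u * v = v * u := fun u hu v hv => h.cen u hu v (h.le hv)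
  have hZcyc : IsCyclic ↥Z := hsymp Z (char_of_inv Z hZinv) (comm_of Z hZab)
  obtain ⟨g, hgZ, hgen⟩ := gen_of_cyclic Z hZcyc
  -- the subgroup S
  let S : Subgroup P :=
    { carrier := {c | c ∈ C ∧ ∃ u ∈ Z, c ^ p = u ^ p}
      mul_mem' := by
        rintro c d ⟨hc, u, hu, hcu⟩ ⟨hd, v, hv, hdv⟩
        refine ⟨C.mul_mem hc hd, ?_⟩
        obtain ⟨w, hw, hcd⟩ := h.mulpow hQ hc hd
        refine ⟨u * v * w, Z.mul_mem (Z.mul_mem hu hv) hw, ?_⟩
        have c1 : Commute u v := hZab u hu v hv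
        have c2 : Commute (u * v) w := hZab _ (Z.mul_mem hu hv) w hw
        rw [hcd, hcu, hdv, c2.mul_pow, c1.mul_pow]
      one_mem' := ⟨C.one_mem, 1, Z.one_mem, by simp⟩
      inv_mem' := by
        rintro c ⟨hc, u, hu, hcu⟩
        exact ⟨C.inv_mem hc, u⁻¹, Z.inv_mem hu, by rw [inv_pow, inv_pow, hcu]⟩ }
  have hSmem : ∀ c, c ∈ S ↔ c ∈ C ∧ ∃ u ∈ Z, c ^ p = u ^ p := fun c => Iff.rfl
  have hSC : S ≤ C := fun c hc => hc.1
  have hZS : Z ≤ S := fun u hu => ⟨h.le hu, u, hu, rfl⟩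
  have hSinv : ∀ α : MulAut P, ∀ x ∈ S, α x ∈ S := by
    rintro α x ⟨hx, u, hu, hxu⟩
    exact ⟨hCinv α x hx, α u, hZinv α u hu, by rw [← map_pow, ← map_pow, hxu]⟩
  have hF3 : ∀ c ∈ S, ∃ u ∈ Z, (c * u) ^ p = 1 := by
    rintro c ⟨hc, u, hu, hcu⟩
    refine ⟨u⁻¹, Z.inv_mem hu, ?_⟩
    have c1 : Commute c u⁻¹ := (h.cen _ (Z.inv_mem hu) c hc).symm
    rw [c1.mul_pow, hcu, inv_pow, mul_inv_cancel]
  -- cosets of S
  have hF4 : ∀ c₁ ∈ C, c₁ ∉ S → ∀ d ∈ C, ∃ i : ℕ, d * c₁ ^ i ∈ S := by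
    intro c₁ hc₁ hc₁S d hd
    obtain ⟨s, hs⟩ := hgen _ (h.pow c₁ hc₁)
    obtain ⟨t, ht⟩ := hgen _ (h.pow d hd)
    have hps : ¬ p ∣ s := by
      rintro ⟨q, rfl⟩
      apply hc₁S
      exact ⟨hc₁, g ^ q, Z.pow_mem hgZ q, by rw [hs, ← pow_mul, mul_comm]⟩
    have hcop : Nat.Coprime s p := ((Nat.Prime.coprime_iff_not_dvd hp.out).2 hps).symm
    obtain ⟨i, -, hi⟩ := Nat.exists_mul_mod_eq_of_coprime ((p - 1) * t) hcop hp.out.ne_zero
    have hdvd : p ∣ t + s * i := by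
      have h1 : s * i ≡ (p - 1) * t [MOD p] := hi
      have h2 : t + s * i ≡ t + (p - 1) * t [MOD p] := Nat.ModEq.add_left t h1
      have h3 : t + (p - 1) * t = p * t := by
        have := hp.out.pos
        obtain ⟨p', rfl⟩ : ∃ p', p = p' + 1 := ⟨p - 1, by omega⟩
        simp; ring
      rw [h3] at h2
      have h4 : p * t ≡ 0 [MOD p] := (Nat.modEq_zero_iff_dvd).2 (dvd_mul_right p t)
      exact (Nat.modEq_zero_iff_dvd).1 (h2.trans h4)
    obtain ⟨q, hq⟩ := hdvd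
    have hci : c₁ ^ i ∈ C := C.pow_mem hc₁ i
    obtain ⟨w, hw, hdc⟩ := h.mulpow hQ hd hci
    refine ⟨i, C.mul_mem hd hci, g ^ q * w, Z.mul_mem (Z.pow_mem hgZ q) hw, ?_⟩
    have c1 : Commute (g ^ q) w := hZab _ (Z.pow_mem hgZ q) w hw
    have e1 : (c₁ ^ i) ^ p = g ^ (s * i) := by
      rw [← pow_mul, mul_comm, pow_mul, hs, ← pow_mul]
    rw [hdc, ht, e1, ← pow_add, hq, c1.mul_pow, ← pow_mul, mul_comm p q]
  intro c hc
  by_contra hcon
  have hcS : c ∉ S := fun hcS => hcon (hF3 c hcS)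
  -- counting
  have hcount := h.count hP hZcyc (Nat.card ↥S) S le_rfl hZS hSC
  have hlt : Nat.card ↥S < Nat.card ↥C := by
    rcases lt_or_eq_of_le (Subgroup.card_le_of_le hSC) with h' | h'
    · exact h'
    · exact absurd (Subgroup.eq_of_le_of_card_ge hSC h'.ge ▸ hc) hcS
  have hZK : Z ≤ C ⊓ Subgroup.centralizer (S : Set P) := by
    intro u hu
    refine ⟨h.le hu, Subgroup.mem_centralizer_iff.2 ?_⟩
    intro s hs
    exact (h.cen u hu s (hSC hs)).symm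
  obtain ⟨w, hwK, hwZ⟩ : ∃ w ∈ C ⊓ Subgroup.centralizer (S : Set P), w ∉ Z := by
    by_contra hno
    push_neg at hno
    have hKZ : C ⊓ Subgroup.centralizer (S : Set P) ≤ Z := hno
    have h1 := Subgroup.card_le_of_le hKZ
    have h2 : 0 < Nat.card ↥S := Nat.card_pos
    have h3 : 0 < Nat.card ↥Z := Nat.card_pos
    have h4 : Nat.card ↥C * Nat.card ↥Z ≤ Nat.card ↥S * Nat.card ↥Z :=
      hcount.trans (Nat.mul_le_mul_left _ h1)
    have h5 : Nat.card ↥S * Nat.card ↥Z < Nat.card ↥C * Nat.card ↥Z :=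
      Nat.mul_lt_mul_of_pos_right hlt h3
    omega
  have hwC : w ∈ C := hwK.1
  have hwS' : ∀ s ∈ S, s * w = w * s := fun s hs => Subgroup.mem_centralizer_iff.1 hwK.2 s hs
  have hwS : w ∈ S := by
    by_contra hwS
    apply hwZ
    apply h.self w hwC
    intro d hd
    obtain ⟨i, hi⟩ := hF4 w hwC hwS d hd
    have c1 : Commute (d * w ^ i) w := hwS' _ hi
    have c2 : Commute (w ^ i) w := (Commute.refl w).pow_left i
    have c3 : Commute d w := by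
      have : d = (d * w ^ i) * (w ^ i)⁻¹ := by group
      rw [this]
      exact c1.mul_left c2.inv_left
    exact c3.eq.symm
  obtain ⟨u, hu, hwu⟩ := hF3 w hwS
  have hw'S : w * u ∈ S := S.mul_mem hwS (hZS hu)
  have hw'Z : w * u ∉ Z := by
    intro h'
    apply hwZ
    have : w = (w * u) * u⁻¹ := by group
    rw [this]
    exact Z.mul_mem h' (Z.inv_mem hu)
  -- the centre of S is characteristic abelian
  let A : Subgroup P := S ⊓ Subgroup.centralizer (S : Set P)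
  have hAinv : ∀ α : MulAut P, ∀ x ∈ A, α x ∈ A := by
    rintro α x ⟨hx1, hx2⟩
    refine ⟨hSinv α x hx1, Subgroup.mem_centralizer_iff.2 ?_⟩
    intro s hs
    have h1 := Subgroup.mem_centralizer_iff.1 hx2 (α⁻¹ s) (hSinv α⁻¹ s hs)
    have h2 := congrArg α h1
    simpa using h2
  have hAab : ∀ a ∈ A, ∀ b ∈ A, a * b = b * a := by
    rintro a ⟨ha1, -⟩ b ⟨-, hb2⟩
    exact Subgroup.mem_centralizer_iff.1 hb2 a ha1
  have hAcyc : IsCyclic ↥A := hsymp A (char_of_inv A hAinv) (comm_of A hAab)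
  obtain ⟨c₀, hc₀, d₀, hd₀, hcd₀⟩ := hna
  have hz0Z : ⁅c₀, d₀⁆ ∈ Z := h.comm c₀ hc₀ d₀ hd₀
  have hz0p : ⁅c₀, d₀⁆ ^ p = 1 := h.comm_pow hc₀ hd₀
  have hz0ne : ⁅c₀, d₀⁆ ≠ 1 := by
    intro h'
    rw [commutatorElement_eq_one_iff_commute] at h'
    exact hcd₀ h'.eq
  have hz0A : ⁅c₀, d₀⁆ ∈ A := ⟨hZS hz0Z, (hZK hz0Z).2⟩
  have hw'A : w * u ∈ A := by
    refine ⟨hw'S, Subgroup.mem_centralizer_iff.2 ?_⟩
    intro s hs
    have c1 : Commute s w := hwS' s hs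
    have c2 : Commute s u := (h.cen u hu s (hSC hs)).symm
    exact (c1.mul_right c2).eq
  haveI := hAcyc
  have hmem := cyc_unique (X := ↥A) (p := p) ⟨w * u, hw'A⟩ ⟨⁅c₀, d₀⁆, hz0A⟩
    (Subtype.ext (by simpa using hwu)) (Subtype.ext (by simpa using hz0p))
    (fun h' => hz0ne (by simpa using congrArg Subtype.val h'))
  obtain ⟨i, hi⟩ := Subgroup.mem_zpowers_iff.1 hmem
  apply hw'Z
  have : w * u = ⁅c₀, d₀⁆ ^ i := by
    have := congrArg Subtype.val hi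
    simpa using this.symm
  rw [this]
  exact Z.zpow_mem hz0Z i

end Cfsg.Agent.Lib.Helper27.PHall
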