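import Mathlib
import Cfsg.Prelude.Def_Transfer
import Cfsg.Agent.Lib.Helper27.PHallB

set_option autoImplicit false

/-! Groups of symplectic type: recognising extraspecial subgroups and splitting off an
extraspecial factor from a class two subgroup with cyclic centre. -/

namespace Cfsg.Agent.Lib.Helper27.PHall

open scoped commutatorElement

theorem exists_mul_of_sup_eq_top {P : Type*} [Group P] (E R : Subgroup P)
    (hc : ∀ e ∈ E, ∀ r ∈ R, e * r = r * e) (htop : E ⊔ R = ⊤) :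
    ∀ x : P, ∃ e ∈ E, ∃ r ∈ R, x = e * r := by
  let S : Subgroup P :=
    { carrier := {x | ∃ e ∈ E, ∃ r ∈ R, x = e * r}
      mul_mem' := by
        rintro _ _ ⟨e, he, r, hr, rfl⟩ ⟨e', he', r', hr', rfl⟩
        refine ⟨e * e', E.mul_mem he he', r * r', R.mul_mem hr hr', ?_⟩
        have h1 := hc e' he' r hr
        calc e * r * (e' * r') = e * (r * e') * r' := by group
          _ = e * (e' * r) * r' := by rw [h1]
          _ = e * e' * (r * r') := by group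
      one_mem' := ⟨1, E.one_mem, 1, R.one_mem, by simp⟩
      inv_mem' := by
        rintro _ ⟨e, he, r, hr, rfl⟩
        refine ⟨e⁻¹, E.inv_mem he, r⁻¹, R.inv_mem hr, ?_⟩
        have h1 := hc e⁻¹ (E.inv_mem he) r⁻¹ (R.inv_mem hr)
        rw [h1]
        group }
  have h1 : E ≤ S := fun e he => ⟨e, he, 1, R.one_mem, by simp⟩
  have h2 : R ≤ S := fun r hr => ⟨1, E.one_mem, r, hr, by simp⟩
  intro x
  have hx : x ∈ S := (sup_le h1 h2) (htop ▸ Subgroup.mem_top x)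
  exact hx

theorem mem_zpowers_of_pow {P : Type*} [Group P] [Finite P] {p : ℕ} [hp : Fact p.Prime]
    (H : Subgroup P) (hHcyc : IsCyclic ↥H) (z₀ : P) (hz0H : z₀ ∈ H) (hz0p : z₀ ^ p = 1)
    (hz0ne : z₀ ≠ 1) : ∀ u ∈ H, u ^ p = 1 → u ∈ Subgroup.zpowers z₀ := by
  intro u hu hup
  have := hHcyc
  have hmem := cyc_unique (X := ↥H) (p := p) ⟨u, hu⟩ ⟨z₀, hz0H⟩
    (Subtype.ext (by simpa using hup)) (Subtype.ext (by simpa using hz0p))
    (fun h' => hz0ne (by simpa using congrArg Subtype.val h'))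
  obtain ⟨i, hi⟩ := Subgroup.mem_zpowers_iff.1 hmem
  have h1 : u = z₀ ^ i := by
    have := congrArg Subtype.val hi
    simpa using this.symm
  rw [h1]
  exact Subgroup.zpow_mem _ (Subgroup.mem_zpowers z₀) i

/-- Recognition of an extraspecial subgroup. -/
theorem extraspecial_of {P : Type*} [Group P] [Finite P] {p : ℕ} [hp : Fact p.Prime] (hP : IsPGroup p P)
    (X Z₀ : Subgroup P) (hZX : Z₀ ≤ X) (hcard : Nat.card ↥Z₀ = p)
    (h1 : ∀ x ∈ X, (∀ y ∈ X, x * y = y * x) → x ∈ Z₀)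
    (h2 : ∀ z ∈ Z₀, ∀ x ∈ X, z * x = x * z)
    (h3 : ∀ x ∈ X, ∀ y ∈ X, ⁅x, y⁆ ∈ Z₀)
    (h4 : ∀ x ∈ X, x ^ p ∈ Z₀)
    (h5 : ∃ x ∈ X, ∃ y ∈ X, x * y ≠ y * x) : Cfsg.IsExtraspecial p ↥X := by
  have hcen : Subgroup.center ↥X = Z₀.subgroupOf X := by
    ext x
    rw [Subgroup.mem_center_iff, Subgroup.mem_subgroupOf]
    constructor
    · intro h
      refine h1 x.1 x.2 (fun y hy => ?_)
      have h' := h ⟨y, hy⟩
      exact (congrArg Subtype.val h').symm
    · intro h y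
      exact Subtype.ext (h2 x.1 h y.1 y.2).symm
  have hcardc : Nat.card ↥(Subgroup.center ↥X) = p := by
    rw [hcen, Nat.card_congr (Subgroup.subgroupOfEquivOfLe hZX).toEquiv]
    exact hcard
  have hle : commutator ↥X ≤ Subgroup.center ↥X := by
    rw [hcen, commutator_def, Subgroup.commutator_le]
    intro a _ b _
    rw [Subgroup.mem_subgroupOf]
    exact h3 a.1 a.2 b.1 b.2
  have hcomm : commutator ↥X = Subgroup.center ↥X := by
    apply Subgroup.eq_of_le_of_card_ge hle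
    rw [hcardc]
    have hdvd : Nat.card ↥(commutator ↥X) ∣ p := hcardc ▸ Subgroup.card_dvd_of_le hle
    rcases (Nat.dvd_prime hp.out).1 hdvd with h | h
    · exfalso
      rw [Subgroup.card_eq_one] at h
      obtain ⟨x, hx, y, hy, hxy⟩ := h5
      have hmem : ⁅(⟨x, hx⟩ : ↥X), ⟨y, hy⟩⁆ ∈ commutator ↥X := by
        rw [commutator_def]
        exact Subgroup.commutator_mem_commutator (Subgroup.mem_top _) (Subgroup.mem_top _)
      rw [h, Subgroup.mem_bot, commutatorElement_eq_one_iff_commute] at hmem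
      exact hxy (congrArg Subtype.val hmem.eq)
    · exact h.ge
  have hfr : frattini ↥X = Subgroup.center ↥X := by
    apply le_antisymm
    · have hk := Cfsg.Agent.Lib.Helper16.Basic.frattini_le_ker_of_elementary (P := ↥X) (p := p)
        (QuotientGroup.mk' (Subgroup.center ↥X)) ?_ ?_
      · rwa [QuotientGroup.ker_mk'] at hk
      · intro x y
        rw [← map_mul, ← map_mul]
        apply (QuotientGroup.eq).2
        rw [hcen, Subgroup.mem_subgroupOf]
        have e : ((x * y)⁻¹ * (y * x) : ↥X) = ⁅y⁻¹, x⁻¹⁆ := by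
          simp [commutatorElement_def, mul_assoc]
        rw [e]
        exact h3 _ (X.inv_mem y.2) _ (X.inv_mem x.2)
      · intro x
        rw [← map_pow]
        apply (QuotientGroup.eq_one_iff _).2
        rw [hcen, Subgroup.mem_subgroupOf]
        simpa using h4 x.1 x.2
    · rw [← hcomm]
      exact Cfsg.Agent.Lib.Helper10.PKer.commutator_le_frattini (hP.to_subgroup X)
  exact ⟨⟨hP.to_subgroup X, hfr, hcomm⟩, hcardc⟩

/-- Splitting off an extraspecial factor from a nonabelian class two subgroup with cyclic centre. -/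
theorem exists_E {P : Type*} [Group P] [Finite P] {p : ℕ} [hp : Fact p.Prime] (hP : IsPGroup p P)
    {C H : Subgroup P} (h : Cl2 p C H) (hHcyc : IsCyclic ↥H)
    (hna : ∃ c ∈ C, ∃ d ∈ C, c * d ≠ d * c)
    (hstar : ∀ c ∈ C, ∃ u ∈ H, ((c * u) ^ p) ^ p = 1)
    (z₀ : P) (hz0H : z₀ ∈ H) (hz0p : z₀ ^ p = 1) (hz0ne : z₀ ≠ 1) :
    ∃ E : Subgroup P, E ≤ C ∧ Subgroup.zpowers z₀ ≤ E ∧ (∀ e ∈ E, (e ^ p) ^ p = 1) ∧
      (∀ c ∈ C, ∃ e ∈ E, ∃ u ∈ H, c = e * u) ∧ Cfsg.IsExtraspecial p ↥E := by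
  classical
  have hZ0 : ∀ u ∈ H, u ^ p = 1 → u ∈ Subgroup.zpowers z₀ :=
    mem_zpowers_of_pow H hHcyc z₀ hz0H hz0p hz0ne
  have hZ0H : Subgroup.zpowers z₀ ≤ H := by
    rw [Subgroup.zpowers_le]; exact hz0H
  have hZ0p : ∀ u ∈ Subgroup.zpowers z₀, u ^ p = 1 := by
    intro u hu
    obtain ⟨i, rfl⟩ := Subgroup.mem_zpowers_iff.1 hu
    rw [← zpow_natCast, ← zpow_mul, mul_comm, zpow_mul, zpow_natCast, hz0p, one_zpow]
  obtain ⟨E, ⟨hZE, hEC, hEH⟩, hmax⟩ :=
    Set.Finite.exists_maximal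
      (s := {E : Subgroup P | Subgroup.zpowers z₀ ≤ E ∧ E ≤ C ∧
        ∀ x ∈ E, x ∈ H → x ∈ Subgroup.zpowers z₀}) (Set.toFinite _)
      ⟨Subgroup.zpowers z₀, le_refl _, hZ0H.trans h.le, fun x hx _ => hx⟩
  have hcommE : ∀ c ∈ C, ∀ e ∈ E, ⁅c, e⁆ ∈ Subgroup.zpowers z₀ := fun c hc e he =>
    hZ0 _ (h.comm c hc e (hEC he)) (h.comm_pow hc (hEC he))
  have hEnorm : ∀ c ∈ C, ∀ e ∈ E, c * e * c⁻¹ ∈ E := by
    intro c hc e he
    have e1 : c * e * c⁻¹ = ⁅c, e⁆ * e := by simp [commutatorElement_def]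
    rw [e1]
    exact E.mul_mem (hZE (hcommE c hc e he)) he
  have hEpow : ∀ e ∈ E, e ^ p ∈ Subgroup.zpowers z₀ := fun e he =>
    hEH _ (E.pow_mem he p) (h.pow e (hEC he))
  have hdec : ∀ c ∈ C, ∃ e ∈ E, ∃ u ∈ H, c = e * u := by
    intro c hc
    by_contra hcon
    obtain ⟨u, hu, hcu⟩ := hstar c hc
    obtain ⟨c', hc'def⟩ : ∃ c', c' = c * u := ⟨_, rfl⟩
    have hc'C : c' ∈ C := by rw [hc'def]; exact C.mul_mem hc (h.le hu)
    have hc'p : c' ^ p ∈ Subgroup.zpowers z₀ := by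
      rw [hc'def]; exact hZ0 _ (h.pow _ (C.mul_mem hc (h.le hu))) hcu
    have hcc' : c = c' * u⁻¹ := by rw [hc'def]; group
    let E' : Subgroup P :=
      { carrier := {x | ∃ e ∈ E, ∃ j : ℤ, x = e * c' ^ j}
        mul_mem' := by
          rintro _ _ ⟨e, he, j, rfl⟩ ⟨e₂, he₂, k, rfl⟩
          refine ⟨e * (c' ^ j * e₂ * (c' ^ j)⁻¹),
            E.mul_mem he (hEnorm _ (C.zpow_mem hc'C j) e₂ he₂), j + k, ?_⟩
          rw [zpow_add]; group
        one_mem' := ⟨1, E.one_mem, 0, by simp⟩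
        inv_mem' := by
          rintro _ ⟨e, he, j, rfl⟩
          refine ⟨c' ^ (-j) * e⁻¹ * (c' ^ (-j))⁻¹,
            hEnorm _ (C.zpow_mem hc'C (-j)) _ (E.inv_mem he), -j, ?_⟩
          group }
    have hEE' : E ≤ E' := fun e he => ⟨e, he, 0, by simp⟩
    have hE'mem : E' ∈ {E : Subgroup P | Subgroup.zpowers z₀ ≤ E ∧ E ≤ C ∧
        ∀ x ∈ E, x ∈ H → x ∈ Subgroup.zpowers z₀} := by
      refine ⟨hZE.trans hEE', ?_, ?_⟩
      · rintro _ ⟨e, he, j, rfl⟩
        exact C.mul_mem (hEC he) (C.zpow_mem hc'C j)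
      · rintro x ⟨e, he, j, hxe⟩ hxH
        by_cases hj : (p : ℤ) ∣ j
        · obtain ⟨m, rfl⟩ := hj
          have h1 : c' ^ ((p : ℤ) * m) ∈ E := by
            rw [zpow_mul, zpow_natCast]
            exact E.zpow_mem (hZE hc'p) m
          exact hEH _ (hxe ▸ E.mul_mem he h1) hxH
        · exfalso
          have hcop : IsCoprime (p : ℤ) j :=
            (Nat.prime_iff_prime_int.1 hp.out).irreducible.coprime_iff_not_dvd.2 hj
          obtain ⟨a, b, hab⟩ := hcop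
          apply hcon
          have hc'j : c' ^ j = e⁻¹ * x := by rw [hxe]; group
          have hcomm : Commute e⁻¹ x := (h.cen _ hxH _ (C.inv_mem (hEC he))).symm
          have e1 : c' = (c' ^ p) ^ a * (c' ^ j) ^ b := by
            rw [← zpow_natCast, ← zpow_mul, ← zpow_mul, ← zpow_add]
            have h1 : (p : ℤ) * a + j * b = 1 := by linarith
            rw [h1, zpow_one]
          have e2 : (c' ^ j) ^ b = (e⁻¹) ^ b * x ^ b := by
            rw [hc'j, hcomm.mul_zpow]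
          refine ⟨(c' ^ p) ^ a * (e⁻¹) ^ b,
            E.mul_mem (E.zpow_mem (hZE hc'p) a) (E.zpow_mem (E.inv_mem he) b),
            x ^ b * u⁻¹, H.mul_mem (H.zpow_mem hxH b) (H.inv_mem hu), ?_⟩
          rw [hcc']
          nth_rewrite 1 [e1]
          rw [e2]
          group
    have hE'E : E' ≤ E := hmax hE'mem hEE'
    have hc'E : c' ∈ E := hE'E ⟨1, E.one_mem, 1, by simp⟩
    exact hcon ⟨c', hc'E, u⁻¹, H.inv_mem hu, hcc'⟩
  refine ⟨E, hEC, hZE, fun e he => hZ0p _ (hEpow e he), hdec, ?_⟩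
  refine extraspecial_of hP E (Subgroup.zpowers z₀) hZE
    ((Nat.card_zpowers z₀).trans (orderOf_eq_prime hz0p hz0ne)) ?_ ?_ ?_ hEpow ?_
  · intro x hx hxE
    refine hEH x hx (h.self x (hEC hx) (fun c hc => ?_))
    obtain ⟨e, he, u, hu, rfl⟩ := hdec c hc
    have c1 : Commute x e := hxE e he
    have c2 : Commute x u := (h.cen u hu x (hEC hx)).symm
    exact (c1.mul_right c2).eq
  · intro z hz x hx
    exact h.cen z (hZ0H hz) x (hEC hx)
  · intro x hx y hy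
    exact hcommE x (hEC hx) y hy
  · obtain ⟨c₀, hc₀, d₀, hd₀, hne⟩ := hna
    obtain ⟨e₁, he₁, u₁, hu₁, rfl⟩ := hdec c₀ hc₀
    obtain ⟨e₂, he₂, u₂, hu₂, rfl⟩ := hdec d₀ hd₀
    refine ⟨e₁, he₁, e₂, he₂, fun hcomm => hne ?_⟩
    have c1 : Commute u₁ e₂ := h.cen u₁ hu₁ e₂ (hEC he₂)
    have c2 : Commute u₂ e₁ := h.cen u₂ hu₂ e₁ (hEC he₁)
    have c3 : Commute u₁ u₂ := h.cen u₁ hu₁ u₂ (h.le hu₂)
    have c4 : Commute e₁ e₂ := hcomm
    exact ((c4.mul_right c2.symm).mul_left (c1.mul_right c3)).eq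

end Cfsg.Agent.Lib.Helper27.PHall
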