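import Mathlib
import Cfsg.Agent.Lib.Helper12.SmallExp
import Cfsg.Agent.Lib.Helper27.OddGL2D
import Cfsg.Agent.S3771

set_option autoImplicit false

/-! Automorphisms of order prime to `p` of a `p`-group of rank at most two (`p` odd) act
nontrivially on an abelian group of exponent `p` and order at most `p²`; consequently a prime
`q ≠ p`, `q` odd, dividing the order of such an automorphism is smaller than `p`. -/

namespace Cfsg.Agent.Lib.Helper27.RankTwo

open scoped commutatorElement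
open Cfsg.Agent.Lib.Helper27.OddGL2
open Cfsg

universe u

theorem small_pair_elim (p : ℕ) [Fact p.Prime] (hp : p ≠ 2) {P : Type u} [Group P] [Finite P]
    (hP : IsPGroup p P) (hr : Cfsg.PRankLE p 2 P) {X : Type*} [Group X]
    (φ : X →* MulAut P) (a : X) (hco : (orderOf a).Coprime p) (hne : φ a ≠ 1) :
    ∃ (V : Type u) (_ : Group V) (_ : Finite V), (∀ x y : V, x * y = y * x) ∧
      (∀ x : V, x ^ p = 1) ∧ Nat.card V ≤ p ^ 2 ∧ ∃ ψ : X →* MulAut V, ψ a ≠ 1 := by
  have hpp : p.Prime := Fact.out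
  obtain ⟨D, hDinv, -, hDexp, hDc, hDf⟩ :=
    Cfsg.Agent.Lib.Helper12.SmallExp.exists_small_exp hP ⊤ (fun g => Subgroup.mem_top _) ⊤
      (fun _ _ _ _ => Subgroup.mem_top _) (fun _ _ _ _ => Subgroup.mem_top _)
  have hDexp' : ∀ d ∈ D, d ^ p = 1 := fun d hd => (hDexp d hd).resolve_right (fun h => hp h.1)
  have hDinv' : ∀ (α : MulAut P), ∀ d ∈ D, α d ∈ D :=
    fun α d hd => hDinv α (Subgroup.mem_top _) d hd
  obtain ⟨Z, hZ⟩ : ∃ Z : Subgroup P, Z = D ⊓ Subgroup.centralizer (D : Set P) := ⟨_, rfl⟩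
  have hZmem : ∀ z, z ∈ Z ↔ z ∈ D ∧ ∀ d ∈ D, d * z = z * d := by
    intro z
    rw [hZ, Subgroup.mem_inf, Subgroup.mem_centralizer_iff]
    rfl
  have hZD : Z ≤ D := fun z hz => ((hZmem z).mp hz).1
  have hZinv : ∀ (α : MulAut P), ∀ z ∈ Z, α z ∈ Z := by
    intro α z hz
    obtain ⟨hzD, hzc⟩ := (hZmem z).mp hz
    refine (hZmem _).mpr ⟨hDinv' α z hzD, ?_⟩
    intro d hd
    have h1 := hzc (α⁻¹ d) (hDinv' α⁻¹ d hd)
    have h2 := congrArg α h1
    rw [map_mul, map_mul, ← MulAut.mul_apply, mul_inv_cancel, MulAut.one_apply] at h2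
    exact h2
  have hcommZ : ∀ d ∈ D, ∀ x : P, ⁅d, x⁆ ∈ Z := fun d hd x =>
    (hZmem _).mpr ⟨(hDc d hd x).1, fun d' hd' => ((hDc d hd x).2 d' hd').symm⟩
  have hZcomm : ∀ x y : ↥Z, x * y = y * x := by
    intro x y
    apply Subtype.ext
    exact ((hZmem y).mp y.2).2 x (hZD x.2)
  have hZcard : Nat.card Z ≤ p ^ 2 :=
    hr Z ⟨⟨hZcomm⟩⟩ (fun z hz => hDexp' z (hZD hz))
  have hDp : IsPGroup p ↥D := hP.to_subgroup D
  have hrD : Cfsg.PRankLE p 2 ↥D := by
    intro A hAc hAe
    have h1 := hr (A.map D.subtype)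
      ⟨⟨fun x y => by
        obtain ⟨x, hx⟩ := x
        obtain ⟨y, hy⟩ := y
        obtain ⟨x', hx', rfl⟩ := hx
        obtain ⟨y', hy', rfl⟩ := hy
        apply Subtype.ext
        have h2 := hAc.is_comm.comm ⟨x', hx'⟩ ⟨y', hy'⟩
        exact congrArg (fun t : ↥A => ((t : ↥D) : P)) h2⟩⟩
      (by
        rintro x ⟨x', hx', rfl⟩
        have h2 := hAe x' hx'
        exact congrArg (fun t : ↥D => (t : P)) h2)
    rw [Subgroup.card_map_of_injective D.subtype_injective] at h1
    exact h1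
  have hDcard : Nat.card D ≤ p ^ 3 :=
    Cfsg.Agent.S3771.result hDp hrD (fun x => Subtype.ext (by
      rw [Subgroup.coe_pow]; exact hDexp' x x.2))
  obtain ⟨ψ₁, hψ₁⟩ := exists_res φ Z (fun x z hz => hZinv (φ x) z hz)
  obtain ⟨ρ, hρ⟩ := exists_res φ D (fun x d hd => hDinv' (φ x) d hd)
  obtain ⟨N, hN⟩ : ∃ N : Subgroup ↥D, N = Z.subgroupOf D := ⟨_, rfl⟩
  have hNmem : ∀ n : ↥D, n ∈ N ↔ (n : P) ∈ Z := by
    intro n
    rw [hN, Subgroup.mem_subgroupOf]
  haveI hNn : N.Normal := ⟨fun n hn g => by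
    rw [hNmem] at hn ⊢
    have h1 := ((hZmem _).mp hn).2 g g.2
    have h2 : ((g * n * g⁻¹ : ↥D) : P) = (n : P) := by
      rw [Subgroup.coe_mul, Subgroup.coe_mul, Subgroup.coe_inv, h1, mul_inv_cancel_right]
    rw [h2]
    exact hn⟩
  obtain ⟨ψ₂, hψ₂⟩ := exists_quot ρ N (fun x n hn => by
    rw [hNmem] at hn ⊢
    rw [hρ]
    exact hZinv (φ x) _ hn)
  have hQcomm : ∀ x y : ↥D ⧸ N, x * y = y * x := by
    intro x y
    induction x using QuotientGroup.induction_on with
    | H d =>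
    induction y using QuotientGroup.induction_on with
    | H d' =>
    rw [← QuotientGroup.mk_mul, ← QuotientGroup.mk_mul, QuotientGroup.eq, hNmem]
    have h1 := hcommZ (d' : P)⁻¹ (D.inv_mem d'.2) (d : P)⁻¹
    have h2 : (((d * d')⁻¹ * (d' * d) : ↥D) : P) = ⁅(d' : P)⁻¹, (d : P)⁻¹⁆ := by
      rw [commutatorElement_def, Subgroup.coe_mul, Subgroup.coe_inv, Subgroup.coe_mul,
        Subgroup.coe_mul]
      group
    rw [h2]
    exact h1
  have hQexp : ∀ x : ↥D ⧸ N, x ^ p = 1 := by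
    intro x
    induction x using QuotientGroup.induction_on with
    | H d =>
    rw [← QuotientGroup.mk_pow]
    have h1 : d ^ p = 1 := Subtype.ext (by rw [Subgroup.coe_pow]; exact hDexp' d d.2)
    rw [h1, QuotientGroup.mk_one]
  have hQcard : Nat.card (↥D ⧸ N) ≤ p ^ 2 := by
    have hmul := Subgroup.card_eq_card_quotient_mul_card_subgroup N
    by_cases hDt : Nontrivial ↥D
    · haveI := hDt
      haveI := hDp.center_nontrivial
      obtain ⟨⟨z, hzc⟩, hz1⟩ := exists_ne (1 : Subgroup.center ↥D)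
      have hzN : z ∈ N := by
        rw [hNmem]
        refine (hZmem _).mpr ⟨z.2, ?_⟩
        intro d hd
        have h1 := Subgroup.mem_center_iff.mp hzc ⟨d, hd⟩
        exact congrArg (fun t : ↥D => (t : P)) h1
      have hz1' : z ≠ 1 := fun h => hz1 (Subtype.ext h)
      have hNp : IsPGroup p ↥N := hDp.to_subgroup N
      obtain ⟨j, hj⟩ := IsPGroup.iff_card.mp hNp
      have hj1 : j ≠ 0 := by
        rintro rfl
        rw [pow_zero] at hj
        have hsub : Subsingleton ↥N := (Nat.card_eq_one_iff_unique.mp hj).1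
        have h1 : (⟨z, hzN⟩ : ↥N) = 1 := Subsingleton.elim _ _
        exact hz1' (congrArg (fun t : ↥N => (t : ↥D)) h1)
      have hpj : p ≤ Nat.card ↥N := by
        rw [hj]
        calc p = p ^ 1 := (pow_one p).symm
          _ ≤ p ^ j := Nat.pow_le_pow_right hpp.pos (Nat.one_le_iff_ne_zero.mpr hj1)
      have h3 : Nat.card (↥D ⧸ N) * p ≤ p ^ 2 * p := by
        calc Nat.card (↥D ⧸ N) * p ≤ Nat.card (↥D ⧸ N) * Nat.card ↥N :=
              Nat.mul_le_mul_left _ hpj
          _ = Nat.card ↥D := hmul.symm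
          _ ≤ p ^ 3 := hDcard
          _ = p ^ 2 * p := by ring
      exact Nat.le_of_mul_le_mul_right h3 hpp.pos
    · rw [not_nontrivial_iff_subsingleton] at hDt
      haveI := hDt
      have h1 : Nat.card (↥D ⧸ N) ≤ 1 := Finite.card_le_one_iff_subsingleton.mpr inferInstance
      exact h1.trans (Nat.one_le_pow _ _ hpp.pos)
  by_cases t1 : ψ₁ a = 1
  · by_cases t2 : ψ₂ a = 1
    · exfalso
      apply hne
      have hfixZ : ∀ z ∈ Z, φ a z = z := by
        intro z hz
        have h1 := hψ₁ a ⟨z, hz⟩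
        rw [t1, MulAut.one_apply] at h1
        exact h1.symm
      have hmodZ : ∀ d ∈ D, d⁻¹ * φ a d ∈ Z := by
        intro d hd
        have h1 := hψ₂ a ⟨d, hd⟩
        rw [t2, MulAut.one_apply] at h1
        have h2 := QuotientGroup.eq.mp h1
        rw [hNmem, Subgroup.coe_mul, Subgroup.coe_inv, hρ] at h2
        exact h2
      have hcoφ : (orderOf (φ a)).Coprime p :=
        Nat.Coprime.coprime_dvd_left (orderOf_map_dvd φ a) hco
      have hfixD : ∀ d ∈ D, φ a d = d := by
        intro d hd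
        apply Cfsg.Agent.Lib.Helper12.SmallExp.fix_of_coprime hP (φ a) hcoφ d
        exact hfixZ _ (hmodZ d hd)
      exact hDf (φ a) (Subgroup.mem_top _) hcoφ hfixD
    · exact ⟨↥D ⧸ N, inferInstance, inferInstance, hQcomm, hQexp, hQcard, ψ₂, t2⟩
  · exact ⟨↥Z, inferInstance, inferInstance, hZcomm,
      fun x => Subtype.ext (by rw [Subgroup.coe_pow]; exact hDexp' x (hZD x.2)), hZcard, ψ₁, t1⟩

theorem prime_lt_of_aut (p q : ℕ) [Fact p.Prime] [Fact q.Prime] (hqp : q ≠ p) (hq2 : q ≠ 2)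
    (hp2 : p ≠ 2) {V : Type*} [Group V] [Finite V] (hexp : ∀ x : V, x ^ p = 1)
    (hcard : Nat.card V ≤ p ^ 2) (γ : MulAut V) (hγ : γ ≠ 1) (hγq : γ ^ q = 1) : q < p := by
  have hpp : p.Prime := Fact.out
  have hqq : q.Prime := Fact.out
  obtain ⟨F, hF⟩ : ∃ F : Subgroup V, ∀ v, v ∈ F ↔ γ v = v :=
    ⟨{ carrier := {v | γ v = v}
       mul_mem' := by
         intro a b ha hb
         show γ (a * b) = a * b
         rw [map_mul, ha, hb]
       one_mem' := map_one γ
       inv_mem' := by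
         intro a ha
         show γ a⁻¹ = a⁻¹
         rw [map_inv, ha] }, fun v => Iff.rfl⟩
  have hK : IsPGroup q (Subgroup.zpowers γ) :=
    IsPGroup.of_card (n := 1) (by rw [Nat.card_zpowers, orderOf_eq_prime hγq hγ, pow_one])
  have hmod := hK.card_modEq_card_fixedPoints V
  have hfix : Nat.card (MulAction.fixedPoints (Subgroup.zpowers γ) V) = Nat.card F := by
    apply Nat.card_congr
    apply Equiv.subtypeEquivRight
    intro v
    rw [MulAction.mem_fixedPoints, hF]
    constructor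
    · intro h
      exact h ⟨γ, Subgroup.mem_zpowers γ⟩
    · rintro h ⟨k, hk⟩
      have h1 : γ ∈ MulAction.stabilizer (MulAut V) v := by
        rw [MulAction.mem_stabilizer_iff]
        exact h
      have h2 : k ∈ MulAction.stabilizer (MulAut V) v := by
        obtain ⟨n, rfl⟩ := Subgroup.mem_zpowers_iff.mp hk
        exact Subgroup.zpow_mem _ h1 n
      exact MulAction.mem_stabilizer_iff.mp h2
  rw [hfix] at hmod
  have hVp : IsPGroup p V := fun x => ⟨1, by rw [pow_one]; exact hexp x⟩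
  obtain ⟨k, hk⟩ := IsPGroup.iff_card.mp hVp
  obtain ⟨i, hi⟩ := IsPGroup.iff_card.mp (hVp.to_subgroup F)
  have hk2 : k ≤ 2 := by
    rw [hk] at hcard
    exact (Nat.pow_le_pow_iff_right hpp.one_lt).mp hcard
  have hFne : F ≠ ⊤ := by
    intro h
    apply hγ
    apply MulEquiv.ext
    intro v
    have : v ∈ F := by rw [h]; exact Subgroup.mem_top v
    exact (hF v).mp this
  have hik : i < k := by
    have h1 : Nat.card F < Nat.card V := by
      by_contra hcon
      push Not at hcon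
      apply hFne
      exact Subgroup.eq_top_of_card_eq F (le_antisymm (Subgroup.card_le_card_group F) hcon)
    rw [hi, hk] at h1
    exact (Nat.pow_lt_pow_iff_right hpp.one_lt).mp h1
  rw [hk, hi] at hmod
  have hdvd : q ∣ p ^ k - p ^ i :=
    (Nat.modEq_iff_dvd' (Nat.pow_le_pow_right hpp.pos hik.le)).mp hmod.symm
  have hodd : Odd p := hpp.odd_of_ne_two hp2
  have case1 : q ∣ p - 1 → q < p := by
    intro h
    have h1 := Nat.le_of_dvd (by have := hpp.two_le; omega) h
    omega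
  have case2 : q ∣ p + 1 → q < p := by
    intro h
    have h1 := Nat.le_of_dvd (by omega) h
    have h2 : q ≠ p + 1 := by
      intro heq
      apply hq2
      rw [← Nat.Prime.even_iff hqq, heq]
      exact hodd.add_one
    omega
  interval_cases k
  · omega
  · interval_cases i
    rw [pow_one, pow_zero] at hdvd
    exact case1 hdvd
  · interval_cases i
    · rw [pow_zero] at hdvd
      have e : p ^ 2 - 1 = (p - 1) * (p + 1) := by
        obtain ⟨m, rfl⟩ : ∃ m, p = m + 1 := ⟨p - 1, by have := hpp.two_le; omega⟩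
        have : (m + 1) ^ 2 = m * (m + 2) + 1 := by ring
        rw [this]
        simp
      rw [e] at hdvd
      rcases (Nat.Prime.dvd_mul hqq).mp hdvd with h | h
      · exact case1 h
      · exact case2 h
    · rw [pow_one] at hdvd
      have e : p ^ 2 - p = p * (p - 1) := by
        rw [Nat.mul_sub, mul_one, pow_two]
      rw [e] at hdvd
      rcases (Nat.Prime.dvd_mul hqq).mp hdvd with h | h
      · exact absurd ((Nat.prime_dvd_prime_iff_eq hqq hpp).mp h) hqp
      · exact case1 h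

theorem prime_lt_of_aut_rank (p q : ℕ) [Fact p.Prime] [Fact q.Prime] (hp : p ≠ 2) (hq : q ≠ 2)
    (hqp : q ≠ p) {P : Type u} [Group P] [Finite P] (hP : IsPGroup p P)
    (hr : Cfsg.PRankLE p 2 P) (β : MulAut P) (hβ : β ≠ 1) (hβq : β ^ q = 1) : q < p := by
  have hpp : p.Prime := Fact.out
  have hqq : q.Prime := Fact.out
  have ho : orderOf β = q := orderOf_eq_prime hβq hβ
  obtain ⟨V, _, _, -, he, hcard, ψ, hψ⟩ := small_pair_elim p hp hP hr (MonoidHom.id (MulAut P)) β
    (by rw [ho]; exact (Nat.coprime_primes hqq hpp).mpr hqp) hβ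
  exact prime_lt_of_aut p q hqp hq hp he hcard (ψ β) hψ (by rw [← map_pow, hβq, map_one])

end Cfsg.Agent.Lib.Helper27.RankTwo
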