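import Mathlib

set_option autoImplicit false

namespace Cfsg.Agent.Lib.Helper27

/-- Relative trace argument: for a finite group `A` acting on a commutative `p`-group `V` and a
subgroup `T` of index prime to `p`, the fixed points of `A` form a direct factor of the fixed
points of `T`. -/
theorem fixed_direct_factor_comm {A V : Type*} [Group A] [Finite A] [CommGroup V]
    (ρ : A →* Monoid.End V) (T : Subgroup A) (p k : ℕ) [Fact p.Prime]
    (hV : ∀ v : V, v ^ (p ^ k) = 1) (hT : (T.index).Coprime p)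
    (W U : Subgroup V) (hW : ∀ v, v ∈ W ↔ ∀ t ∈ T, ρ t v = v)
    (hU : ∀ v, v ∈ U ↔ ∀ a : A, ρ a v = v) :
    ∃ K : Subgroup V, K ≤ W ∧ U ⊓ K = ⊥ ∧ U ⊔ K = W := by
  classical
  have : Fintype (A ⧸ T) := Fintype.ofFinite _
  obtain ⟨tr, htr⟩ : ∃ tr : V → V, ∀ v, tr v = ∏ q : A ⧸ T, ρ q.out v := ⟨_, fun _ => rfl⟩
  have tr_mul : ∀ v w, tr (v * w) = tr v * tr w := by
    intro v w
    rw [htr, htr, htr, ← Finset.prod_mul_distrib]
    apply Finset.prod_congr rfl
    intro q _
    exact map_mul (ρ q.out) v w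
  have tr_one : tr 1 = 1 := by
    rw [htr]
    apply Finset.prod_eq_one
    intro q _
    exact map_one (ρ q.out)
  have tr_inv : ∀ v, tr v⁻¹ = (tr v)⁻¹ := by
    intro v
    rw [htr, htr, ← Finset.prod_inv_distrib]
    apply Finset.prod_congr rfl
    intro q _
    exact map_inv (ρ q.out) v
  have tr_pow : ∀ v (n : ℕ), tr (v ^ n) = (tr v) ^ n := by
    intro v n
    rw [htr, htr, ← Finset.prod_pow]
    apply Finset.prod_congr rfl
    intro q _
    exact map_pow (ρ q.out) v n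
  have hUW : U ≤ W := fun v hv => (hW v).mpr (fun t _ => (hU v).mp hv t)
  have tr_fixed : ∀ v ∈ W, tr v ∈ U := by
    intro v hv
    rw [hU]
    intro a
    rw [htr, map_prod]
    have h1 : ∀ q : A ⧸ T, ρ a (ρ q.out v) = ρ ((a • q).out) v := by
      intro q
      have h2 : ((a • q).out)⁻¹ * (a * q.out) ∈ T := by
        rw [← QuotientGroup.eq, QuotientGroup.out_eq']
        exact (MulAction.Quotient.mk_smul_out T a q).symm
      have h3 : a * q.out = (a • q).out * (((a • q).out)⁻¹ * (a * q.out)) := by group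
      have h4 : ρ a (ρ q.out v) = ρ (a * q.out) v := by
        rw [map_mul]
        rfl
      rw [h4, h3, map_mul]
      show ρ ((a • q).out) (ρ (((a • q).out)⁻¹ * (a * q.out)) v) = _
      rw [(hW v).mp hv _ h2]
    rw [Finset.prod_congr rfl (fun q _ => h1 q)]
    exact Equiv.prod_comp (MulAction.toPerm a) (fun q : A ⧸ T => ρ q.out v)
  have tr_U : ∀ v ∈ U, tr v = v ^ T.index := by
    intro v hv
    rw [htr, Finset.prod_congr rfl (fun q _ => (hU v).mp hv q.out), Finset.prod_const,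
      Finset.card_univ, Subgroup.index_eq_card, Nat.card_eq_fintype_card]
  have hcop : (T.index).Coprime (p ^ k) := Nat.Coprime.pow_right k hT
  obtain ⟨K, hK⟩ : ∃ K : Subgroup V, ∀ v, v ∈ K ↔ v ∈ W ∧ tr v = 1 :=
    ⟨{ carrier := {v | v ∈ W ∧ tr v = 1}
       mul_mem' := fun {a b} ha hb => ⟨W.mul_mem ha.1 hb.1, by rw [tr_mul, ha.2, hb.2, one_mul]⟩
       one_mem' := ⟨W.one_mem, tr_one⟩
       inv_mem' := fun {a} ha => ⟨W.inv_mem ha.1, by rw [tr_inv, ha.2, inv_one]⟩ },
      fun v => Iff.rfl⟩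
  refine ⟨K, fun v hv => ((hK v).mp hv).1, ?_, ?_⟩
  · rw [eq_bot_iff]
    rintro v ⟨hvU, hvK⟩
    have hv1 := ((hK v).mp hvK).2
    rw [tr_U v hvU] at hv1
    have h1 : orderOf v ∣ T.index := orderOf_dvd_of_pow_eq_one hv1
    have h2 : orderOf v ∣ p ^ k := orderOf_dvd_of_pow_eq_one (hV v)
    have h3 : orderOf v = 1 := Nat.eq_one_of_dvd_coprimes hcop h1 h2
    exact Subgroup.mem_bot.mpr (orderOf_eq_one_iff.mp h3)
  · apply le_antisymm
    · exact sup_le hUW (fun v hv => ((hK v).mp hv).1)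
    · intro v hv
      have hpk : p ^ k ≠ 0 := pow_ne_zero k (Fact.out : p.Prime).ne_zero
      obtain ⟨n, -, hn⟩ := Nat.exists_mul_mod_eq_of_coprime 1 hcop hpk
      have hxU := tr_fixed v hv
      have huU : (tr v) ^ n ∈ U := U.pow_mem hxU n
      have htru : tr ((tr v) ^ n) = tr v := by
        rw [tr_U _ huU, ← pow_mul, mul_comm, pow_eq_pow_mod _ (hV (tr v)), hn,
          ← pow_eq_pow_mod _ (hV (tr v)), pow_one]
      have hK' : v * ((tr v) ^ n)⁻¹ ∈ K := by
        rw [hK]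
        refine ⟨W.mul_mem hv (W.inv_mem (hUW huU)), ?_⟩
        rw [tr_mul, tr_inv, htru, mul_inv_cancel]
      have h5 : v = (tr v) ^ n * (v * ((tr v) ^ n)⁻¹) := by
        rw [mul_comm v, ← mul_assoc, mul_inv_cancel, one_mul]
      rw [h5]
      exact Subgroup.mul_mem _ (Subgroup.mem_sup_left huU) (Subgroup.mem_sup_right hK')

/-- The same statement for a group with a commutativity hypothesis instead of a `CommGroup`
instance. -/
theorem fixed_direct_factor {A V : Type*} [Group A] [Finite A] [inst : Group V]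
    (hcomm : ∀ a b : V, a * b = b * a)
    (ρ : A →* Monoid.End V) (T : Subgroup A) (p k : ℕ) [Fact p.Prime]
    (hV : ∀ v : V, v ^ (p ^ k) = 1) (hT : (T.index).Coprime p)
    (W U : Subgroup V) (hW : ∀ v, v ∈ W ↔ ∀ t ∈ T, ρ t v = v)
    (hU : ∀ v, v ∈ U ↔ ∀ a : A, ρ a v = v) :
    ∃ K : Subgroup V, K ≤ W ∧ U ⊓ K = ⊥ ∧ U ⊔ K = W :=
  @fixed_direct_factor_comm A V _ _ { inst with mul_comm := hcomm } ρ T p k _ hV hT W U hW hU

end Cfsg.Agent.Lib.Helper27
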